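import Mathlib

/-!
An elementary bound for the number of conjugacy classes of a permutation group of degree `n` with
`r` orbits: `k(H) ≤ 2 ^ (n - r)`.

For a subgroup `H` and an orbit `O` put `T(H, O) = ∑ x ∈ H, |C_H(x)| · |Fix(x) ∩ O|`. With `β ∈ O` and
`K` its stabilizer one has `|H| k(H) ≤ T(H, O) ≤ |O| T(K, O)`, and the orbit `O` splits into `t`
orbits of `K`, so that `K` has at least `r + t - 1` orbits; induction on the order finishes, as
`t ≤ 2 ^ (t - 1)`.
-/

set_option autoImplicit false

namespace Cfsg.Agent.Lib.PermClasses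

open Finset

variable {α : Type*} [Fintype α]

open scoped Classical in
/-- The elements of a subgroup. -/
noncomputable def els (H : Subgroup (Equiv.Perm α)) : Finset (Equiv.Perm α) :=
  univ.filter (· ∈ H)

open scoped Classical in
/-- The order of the centralizer of `x` in `H`. -/
noncomputable def cen (H : Subgroup (Equiv.Perm α)) (x : Equiv.Perm α) : ℕ :=
  ((els H).filter fun g : Equiv.Perm α => g * x = x * g).card

open scoped Classical in
/-- The fixed points of `x` in `S`. -/
noncomputable def fixIn (S : Finset α) (x : Equiv.Perm α) : Finset α :=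
  S.filter fun a => x a = a

/-- The number of commuting pairs. -/
noncomputable def pairs (H : Subgroup (Equiv.Perm α)) : ℕ := ∑ x ∈ els H, cen H x

/-- The centralizer orders weighted by fixed points. -/
noncomputable def wsum (H : Subgroup (Equiv.Perm α)) (S : Finset α) : ℕ :=
  ∑ x ∈ els H, cen H x * (fixIn S x).card

open scoped Classical in
/-- The orbit of a point. -/
noncomputable def orb (H : Subgroup (Equiv.Perm α)) (a : α) : Finset α :=
  (els H).image fun g => g a

open scoped Classical in
/-- The number of orbits. -/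
noncomputable def nOrb (H : Subgroup (Equiv.Perm α)) : ℕ := ((univ : Finset α).image (orb H)).card

/-- The stabilizer of a point in `H`. -/
def stab (H : Subgroup (Equiv.Perm α)) (b : α) : Subgroup (Equiv.Perm α) :=
  H ⊓ MulAction.stabilizer (Equiv.Perm α) b

lemma mem_els {H : Subgroup (Equiv.Perm α)} {g : Equiv.Perm α} : g ∈ els H ↔ g ∈ H := by
  simp [els]

lemma mem_stab {H : Subgroup (Equiv.Perm α)} {b : α} {g : Equiv.Perm α} :
    g ∈ stab H b ↔ g ∈ H ∧ g b = b := by
  simp [stab, Equiv.Perm.smul_def]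

lemma stab_le (H : Subgroup (Equiv.Perm α)) (b : α) : stab H b ≤ H := inf_le_left

lemma self_mem_orb (H : Subgroup (Equiv.Perm α)) (a : α) : a ∈ orb H a := by
  classical
  exact mem_image.2 ⟨1, mem_els.2 H.one_mem, rfl⟩

lemma mem_orb {H : Subgroup (Equiv.Perm α)} {a b : α} : b ∈ orb H a ↔ ∃ g ∈ H, g a = b := by
  classical
  simp [orb, mem_els]

lemma orb_eq_of_mem {H : Subgroup (Equiv.Perm α)} {a b : α} (h : b ∈ orb H a) : orb H b = orb H a := by
  obtain ⟨g, hg, rfl⟩ := mem_orb.1 h
  ext c
  simp only [mem_orb]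
  constructor
  · rintro ⟨k, hk, rfl⟩; exact ⟨k * g, H.mul_mem hk hg, rfl⟩
  · rintro ⟨k, hk, rfl⟩; exact ⟨k * g⁻¹, H.mul_mem hk (H.inv_mem hg), by simp⟩

lemma orb_mono {K H : Subgroup (Equiv.Perm α)} (h : K ≤ H) (a : α) : orb K a ⊆ orb H a := by
  intro b hb
  obtain ⟨g, hg, e⟩ := mem_orb.1 hb
  exact mem_orb.2 ⟨g, h hg, e⟩

lemma nOrb_le (H : Subgroup (Equiv.Perm α)) : nOrb H ≤ Fintype.card α := by
  classical
  exact card_image_le

lemma one_le_nOrb [Nonempty α] (H : Subgroup (Equiv.Perm α)) : 1 ≤ nOrb H := by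
  classical
  exact Finset.card_pos.2 (univ_nonempty.image _)

open scoped Classical in
lemma card_fiber_le (H : Subgroup (Equiv.Perm α)) (b : α) (g : Equiv.Perm α) (a : α) :
    (((els H).filter fun h : Equiv.Perm α => h * g = g * h).filter fun h : Equiv.Perm α => h b = a).card ≤ cen (stab H b) g := by
  by_cases he : (((els H).filter fun h : Equiv.Perm α => h * g = g * h).filter fun h : Equiv.Perm α => h b = a).Nonempty
  · obtain ⟨h₀, hh₀⟩ := he
    simp only [mem_filter, mem_els] at hh₀
    unfold cen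
    refine card_le_card_of_injOn (fun h => h₀⁻¹ * h) (fun h hh => ?_) (fun u _ v _ e => mul_left_cancel e)
    obtain ⟨hh1, hb⟩ := mem_filter.1 (mem_coe.1 hh)
    obtain ⟨hH, hc⟩ := mem_filter.1 hh1
    simp only [mem_coe, mem_filter, mem_els, mem_stab]
    refine ⟨⟨H.mul_mem (H.inv_mem hh₀.1.1) (mem_els.1 hH), ?_⟩, ?_⟩
    · rw [Equiv.Perm.mul_apply, hb, ← hh₀.2]; simp
    · exact ((Commute.inv_left (show Commute h₀ g from hh₀.1.2)).mul_left (show Commute h g from hc)).eq
  · simp [not_nonempty_iff_eq_empty.1 he]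

/-- The centralizer moves `b` at most through the fixed points of the element. -/
lemma cen_le (H : Subgroup (Equiv.Perm α)) (b : α) (g : Equiv.Perm α) :
    cen H g ≤ cen (stab H b) g * (orb H b).card := by
  classical
  refine card_le_mul_card_image_of_maps_to (f := fun h => h b) (fun h hh => ?_) _
    (fun a _ => card_fiber_le H b g a)
  exact mem_orb.2 ⟨h, mem_els.1 (mem_filter.1 hh).1, rfl⟩

lemma cen_le_fix (H : Subgroup (Equiv.Perm α)) (b : α) (g : Equiv.Perm α) (hg : g b = b) :
    cen H g ≤ cen (stab H b) g * (fixIn (orb H b) g).card := by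
  classical
  refine card_le_mul_card_image_of_maps_to (f := fun h => h b) (fun h hh => ?_) _
    (fun a _ => card_fiber_le H b g a)
  obtain ⟨h1, h2⟩ := mem_filter.1 hh
  refine mem_filter.2 ⟨mem_orb.2 ⟨h, mem_els.1 h1, rfl⟩, ?_⟩
  rw [← Equiv.Perm.mul_apply, ← h2, Equiv.Perm.mul_apply, hg]

lemma card_orb_mul (H : Subgroup (Equiv.Perm α)) (b : α) :
    (els (stab H b)).card * (orb H b).card = (els H).card := by
  classical
  have hfib : ∀ a ∈ orb H b, ((els H).filter fun h : Equiv.Perm α => h b = a).card = (els (stab H b)).card := by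
    intro a ha
    obtain ⟨h₀, hh₀, rfl⟩ := mem_orb.1 ha
    refine card_bij' (fun h _ => h₀⁻¹ * h) (fun k _ => h₀ * k) ?_ ?_ ?_ ?_
    · intro h hh
      simp only [mem_filter, mem_els] at hh ⊢
      exact mem_stab.2 ⟨H.mul_mem (H.inv_mem hh₀) hh.1, by simp [hh.2]⟩
    · intro k hk
      simp only [mem_filter, mem_els] at hk ⊢
      exact ⟨H.mul_mem hh₀ (mem_stab.1 hk).1, by simp [(mem_stab.1 hk).2]⟩
    · intro h _; simp
    · intro k _; simp
  rw [card_eq_sum_card_image (fun h : Equiv.Perm α => h b) (els H)]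
  show _ = ∑ a ∈ orb H b, _
  rw [sum_congr rfl hfib, sum_const, smul_eq_mul, mul_comm]

open scoped Classical in
/-- The weighted sum, sorted by the fixed point. -/
lemma wsum_eq (H : Subgroup (Equiv.Perm α)) (S : Finset α) :
    wsum H S = ∑ a ∈ S, ∑ x ∈ els (stab H a), cen H x := by
  have e : ∀ a, els (stab H a) = (els H).filter fun x : Equiv.Perm α => x a = a := fun a => by
    ext x; simp [mem_els, mem_stab]
  simp only [e, sum_filter]
  rw [sum_comm]
  refine sum_congr rfl fun x _ => ?_
  rw [← sum_filter, sum_const, smul_eq_mul, mul_comm]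
  rfl

lemma cen_conj {H : Subgroup (Equiv.Perm α)} {h : Equiv.Perm α} (hh : h ∈ H) (x : Equiv.Perm α) :
    cen H (h * x * h⁻¹) = cen H x := by
  classical
  refine card_bij' (fun g _ => h⁻¹ * g * h) (fun g _ => h * g * h⁻¹) ?_ ?_ ?_ ?_
  · intro g hg
    simp only [mem_filter, mem_els] at hg ⊢
    refine ⟨H.mul_mem (H.mul_mem (H.inv_mem hh) hg.1) hh, ?_⟩
    calc h⁻¹ * g * h * x = h⁻¹ * (g * (h * x * h⁻¹)) * h := by group
      _ = h⁻¹ * ((h * x * h⁻¹) * g) * h := by rw [hg.2]
      _ = x * (h⁻¹ * g * h) := by group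
  · intro g hg
    simp only [mem_filter, mem_els] at hg ⊢
    refine ⟨H.mul_mem (H.mul_mem hh hg.1) (H.inv_mem hh), ?_⟩
    calc h * g * h⁻¹ * (h * x * h⁻¹) = h * (g * x) * h⁻¹ := by group
      _ = h * (x * g) * h⁻¹ := by rw [hg.2]
      _ = h * x * h⁻¹ * (h * g * h⁻¹) := by group
  · intro g _; group
  · intro g _; group

/-- The weighted sum over an orbit. -/
lemma wsum_orb (H : Subgroup (Equiv.Perm α)) (b : α) :
    wsum H (orb H b) = (orb H b).card * ∑ x ∈ els (stab H b), cen H x := by
  classical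
  rw [wsum_eq]
  refine (sum_congr rfl fun a ha => ?_).trans (by rw [sum_const, smul_eq_mul])
  obtain ⟨h, hh, rfl⟩ := mem_orb.1 ha
  symm
  refine sum_bij' (fun x _ => h * x * h⁻¹) (fun x _ => h⁻¹ * x * h) ?_ ?_ ?_ ?_ ?_
  · intro x hx
    simp only [mem_els, mem_stab] at hx ⊢
    exact ⟨H.mul_mem (H.mul_mem hh hx.1) (H.inv_mem hh), by simp [hx.2]⟩
  · intro x hx
    simp only [mem_els, mem_stab] at hx ⊢
    exact ⟨H.mul_mem (H.mul_mem (H.inv_mem hh) hx.1) hh, by simp [hx.2]⟩
  · intro x _; group
  · intro x _; group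
  · intro x _; exact (cen_conj hh x).symm

/-- The number of commuting pairs is at most the weighted sum over any orbit. -/
lemma pairs_le_wsum (H : Subgroup (Equiv.Perm α)) (b : α) : pairs H ≤ wsum H (orb H b) := by
  classical
  rw [wsum_orb]
  have hswap : ∑ x ∈ els (stab H b), cen H x = ∑ g ∈ els H, cen (stab H b) g := by
    simp only [cen, card_filter]
    rw [sum_comm]
    refine sum_congr rfl fun g _ => sum_congr rfl fun x _ => ?_
    exact if_congr eq_comm rfl rfl
  rw [hswap, mul_comm, sum_mul]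
  exact sum_le_sum fun g _ => cen_le H b g

/-- The weighted sum over an orbit, compared with the stabilizer. -/
lemma wsum_le_stab (H : Subgroup (Equiv.Perm α)) (b : α) :
    wsum H (orb H b) ≤ (orb H b).card * wsum (stab H b) (orb H b) := by
  rw [wsum_orb]
  refine Nat.mul_le_mul_left _ (sum_le_sum fun x hx => ?_)
  exact cen_le_fix H b x (mem_stab.1 (mem_els.1 hx)).2

open scoped Classical in
/-- Splitting of the weighted sum along orbits of a subgroup of the acting group. -/
lemma wsum_split {K H : Subgroup (Equiv.Perm α)} (hK : K ≤ H) (b : α) :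
    wsum K (orb H b) = ∑ U ∈ (orb H b).image (orb K), wsum K U := by
  have key : ∀ x, (fixIn (orb H b) x).card = ∑ U ∈ (orb H b).image (orb K), (fixIn U x).card := by
    intro x
    rw [card_eq_sum_card_fiberwise (f := orb K) (s := fixIn (orb H b) x) (t := (orb H b).image (orb K))
      (fun a ha => mem_image_of_mem _ (mem_filter.1 ha).1)]
    refine sum_congr rfl fun U hU => congrArg card ?_
    obtain ⟨c, hc, rfl⟩ := mem_image.1 hU
    ext a
    simp only [fixIn, mem_filter]
    constructor
    · rintro ⟨⟨-, ha⟩, e⟩; exact ⟨e ▸ self_mem_orb K a, ha⟩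
    · rintro ⟨ha, hx⟩
      exact ⟨⟨orb_eq_of_mem hc ▸ orb_mono hK c ha, hx⟩, orb_eq_of_mem ha⟩
  simp only [wsum, key, mul_sum]
  exact sum_comm

open scoped Classical in
/-- The stabilizer has at least `r + t - 1` orbits. -/
lemma nOrb_add_le {K H : Subgroup (Equiv.Perm α)} (hK : K ≤ H) (b : α) :
    nOrb H + ((orb H b).image (orb K)).card ≤ nOrb K + 1 := by
  set A := (univ : Finset α).image (orb K) with hA
  set B := (orb H b).image (orb K) with hB
  have hBA : B ⊆ A := image_subset_image (subset_univ _)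
  set rest := ((univ : Finset α).image (orb H)).erase (orb H b) with hrest
  have h1 : rest.card + 1 = nOrb H := card_erase_add_one (mem_image_of_mem _ (mem_univ b))
  have h2 : rest.card ≤ (A \ B).card := by
    refine card_le_card_of_injOn (fun O => if hO : O.Nonempty then orb K hO.choose else ∅) ?_ ?_
    · intro O hO
      obtain ⟨hne, hO'⟩ := mem_erase.1 (mem_coe.1 hO)
      obtain ⟨c, -, rfl⟩ := mem_image.1 hO'
      have hO2 : (orb H c).Nonempty := ⟨c, self_mem_orb H c⟩
      simp only [dif_pos hO2, mem_coe, mem_sdiff]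
      refine ⟨mem_image_of_mem _ (mem_univ _), fun hb => hne ?_⟩
      obtain ⟨d, hd, e⟩ := mem_image.1 hb
      have h3 : hO2.choose ∈ orb H b := by
        rw [← orb_eq_of_mem hd]
        exact orb_mono hK d (e ▸ self_mem_orb K _)
      rw [← orb_eq_of_mem hO2.choose_spec, orb_eq_of_mem h3]
    · intro O hO O' hO' e
      obtain ⟨-, hO1⟩ := mem_erase.1 (mem_coe.1 hO)
      obtain ⟨c, -, rfl⟩ := mem_image.1 hO1
      obtain ⟨-, hO1'⟩ := mem_erase.1 (mem_coe.1 hO')
      obtain ⟨c', -, rfl⟩ := mem_image.1 hO1'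
      have hc : (orb H c).Nonempty := ⟨c, self_mem_orb H c⟩
      have hc' : (orb H c').Nonempty := ⟨c', self_mem_orb H c'⟩
      simp only [dif_pos hc, dif_pos hc'] at e
      have h3 : hc.choose ∈ orb H hc'.choose := orb_mono hK _ (e ▸ self_mem_orb K _)
      rw [← orb_eq_of_mem hc.choose_spec, ← orb_eq_of_mem hc'.choose_spec]
      exact orb_eq_of_mem h3
  have h4 : (A \ B).card + B.card = nOrb K := card_sdiff_add_card_eq_card hBA
  omega

lemma pairs_eq_wsum_of_orb_singleton (H : Subgroup (Equiv.Perm α)) (b : α) (h : orb H b = {b}) :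
    wsum H (orb H b) = pairs H := by
  classical
  refine sum_congr rfl fun x hx => ?_
  have hxb : x b ∈ orb H b := mem_orb.2 ⟨x, mem_els.1 hx, rfl⟩
  rw [h, mem_singleton] at hxb
  simp [fixIn, h, filter_singleton, hxb]

/-- The main induction. -/
theorem bounds : ∀ (m : ℕ) (H : Subgroup (Equiv.Perm α)), (els H).card = m →
    pairs H ≤ m * 2 ^ (Fintype.card α - nOrb H) ∧
      ∀ b : α, wsum H (orb H b) ≤ m * 2 ^ (Fintype.card α - nOrb H) := by
  classical
  intro m
  induction m using Nat.strong_induction_on with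
  | _ m ih =>
  intro H hm
  have big : ∀ b : α, orb H b ≠ {b} → wsum H (orb H b) ≤ m * 2 ^ (Fintype.card α - nOrb H) := by
    intro b hb
    set K := stab H b with hK
    set O := orb H b with hO
    have hO2 : 2 ≤ O.card := by
      by_contra h
      exact hb (eq_singleton_iff_unique_mem.2 ⟨self_mem_orb H b,
        fun a ha => card_le_one.1 (by omega) a ha b (self_mem_orb H b)⟩)
    have hKpos : 0 < (els K).card := card_pos.2 ⟨1, mem_els.2 K.one_mem⟩
    have hcard : (els K).card * O.card = m := (card_orb_mul H b).trans hm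
    have hlt : (els K).card < m := by
      rw [← hcard]; exact lt_mul_of_one_lt_right hKpos (by omega)
    obtain ⟨-, hw⟩ := ih _ hlt K rfl
    set t := (O.image (orb K)).card with ht
    have ht1 : 1 ≤ t := card_pos.2 (Finset.Nonempty.image (s := O) ⟨b, self_mem_orb H b⟩ _)
    have h1 : wsum K O ≤ t * ((els K).card * 2 ^ (Fintype.card α - nOrb K)) := by
      rw [hO, wsum_split (stab_le H b) b, ← smul_eq_mul, ← hO, ht]
      refine sum_le_card_nsmul _ _ _ fun U hU => ?_
      obtain ⟨c, -, rfl⟩ := mem_image.1 hU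
      exact hw c
    have h2 : t * 2 ^ (Fintype.card α - nOrb K) ≤ 2 ^ (Fintype.card α - nOrb H) := by
      have h3 := nOrb_add_le (stab_le H b) b
      rw [← hO, ← hK, ← ht] at h3
      have h4 := nOrb_le K
      calc t * 2 ^ (Fintype.card α - nOrb K) ≤ 2 ^ (t - 1) * 2 ^ (Fintype.card α - nOrb K) := by
            refine Nat.mul_le_mul_right _ ?_
            have := Nat.lt_two_pow_self (n := t - 1)
            omega
        _ ≤ _ := by
            rw [← pow_add]
            exact Nat.pow_le_pow_right two_pos (by omega)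
    calc wsum H O ≤ O.card * wsum K O := wsum_le_stab H b
      _ ≤ O.card * (t * ((els K).card * 2 ^ (Fintype.card α - nOrb K))) := Nat.mul_le_mul_left _ h1
      _ = m * (t * 2 ^ (Fintype.card α - nOrb K)) := by rw [← hcard]; ring
      _ ≤ _ := Nat.mul_le_mul_left _ h2
  have hp : pairs H ≤ m * 2 ^ (Fintype.card α - nOrb H) := by
    by_cases he : ∃ b, orb H b ≠ {b}
    · obtain ⟨b, hb⟩ := he
      exact (pairs_le_wsum H b).trans (big b hb)
    · push Not at he
      have h1 : els H = {1} := by
        refine eq_singleton_iff_unique_mem.2 ⟨mem_els.2 H.one_mem, fun g hg => Equiv.ext fun a => ?_⟩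
        have : g a ∈ orb H a := mem_orb.2 ⟨g, mem_els.1 hg, rfl⟩
        rw [he a, mem_singleton] at this
        simpa using this
      have hm1 : m = 1 := by rw [← hm, h1, card_singleton]
      simp only [pairs, cen, h1, sum_singleton, hm1, one_mul]
      exact (card_filter_le _ _).trans ((card_singleton _).le.trans (Nat.one_le_two_pow))
  refine ⟨hp, fun b => ?_⟩
  by_cases hb : orb H b = {b}
  · rwa [pairs_eq_wsum_of_orb_singleton H b hb]
  · exact big b hb

lemma pairs_eq_classes (H : Subgroup (Equiv.Perm α)) :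
    pairs H = Nat.card (ConjClasses H) * Nat.card H := by
  classical
  rw [← card_comm_eq_card_conjClasses_mul_card]
  have e : pairs H = (((els H) ×ˢ (els H)).filter fun p => p.2 * p.1 = p.1 * p.2).card := by
    simp only [pairs, cen, card_filter]
    rw [sum_product]
  rw [e, ← Nat.card_eq_finsetCard]
  exact Nat.card_congr
    { toFun := fun p => ⟨(⟨p.1.1, mem_els.1 (mem_product.1 (mem_filter.1 p.2).1).1⟩,
        ⟨p.1.2, mem_els.1 (mem_product.1 (mem_filter.1 p.2).1).2⟩), Subtype.ext (mem_filter.1 p.2).2.symm⟩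
      invFun := fun p => ⟨(p.1.1, p.1.2), mem_filter.2 ⟨mem_product.2 ⟨mem_els.2 p.1.1.2, mem_els.2 p.1.2.2⟩,
        (congrArg Subtype.val p.2.eq).symm⟩⟩
      left_inv := fun _ => rfl
      right_inv := fun _ => rfl }

lemma card_els (H : Subgroup (Equiv.Perm α)) : (els H).card = Nat.card H := by
  classical
  rw [← Nat.card_eq_finsetCard]
  exact Nat.card_congr (Equiv.subtypeEquivRight fun g => mem_els)

/-- A permutation group of degree `n` with `r` orbits has at most `2 ^ (n - r)` classes. -/
theorem card_conjClasses_le_orb (H : Subgroup (Equiv.Perm α)) :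
    Nat.card (ConjClasses H) ≤ 2 ^ (Fintype.card α - nOrb H) := by
  have h := (bounds _ H (card_els H)).1
  rw [pairs_eq_classes, mul_comm] at h
  exact Nat.le_of_mul_le_mul_left h Nat.card_pos

/-- A permutation group of degree `n` has at most `2 ^ (n - 1)` classes. -/
theorem card_conjClasses_le (H : Subgroup (Equiv.Perm α)) :
    Nat.card (ConjClasses H) ≤ 2 ^ (Fintype.card α - 1) := by
  refine (card_conjClasses_le_orb H).trans (Nat.pow_le_pow_right two_pos ?_)
  rcases isEmpty_or_nonempty α with h | h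
  · simp [Fintype.card_eq_zero]
  · have := one_le_nOrb H
    omega

end Cfsg.Agent.Lib.PermClasses
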